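import Cfsg.Agent.H562.PQR.Iface
import Cfsg.Agent.Omega.TitsIso.TitsSide
import Cfsg.Agent.S2115

/-!
# S3988, the row of the Tits group (helper628)

`row_tits` : triples of type `(2, 3, 13)` and `(2, 5, 13)`, given by words in the eight central involutions of an
apartment (52-dimensional representation).
-/

set_option autoImplicit false
set_option maxRecDepth 100000

namespace Cfsg.Agent.H628.PQR.Tits

open Cfsg.Agent.ChevalleyStructure.Tits.Pack Cfsg.Agent.ChevalleyStructure.Tits.Data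
  Cfsg.Agent.ChevalleyStructure.Tits.Sat Cfsg.Agent.ChevalleyStructure.Tits.Final
  Cfsg.Agent.ChevalleyStructure.Tits.Mat Cfsg.Agent.ChevalleyStructure.Tits.Order
  Cfsg.Agent.ChevalleyStructure.Tits.Main Cfsg.Agent.Omega.TitsIso.TitsSideRel
  Cfsg.Agent.Omega.TitsIso.TitsSide
open Cfsg.Agent.H562.PQR

theorem prod_ne_one {l : List (ZMod 8)} {i j : I52} (hij : i ≠ j)
    (h : (evalW (zz l)).testBit (52 * ix j + ix i) = true) : (l.map ZH).prod ≠ 1 := by
  intro e
  have h1 : (((((zz l).map yH).prod : Cfsg.Agent.ChevalleyStructure.Tits.Order.H0)) : GL I52 (ZMod 2)) = 1 := by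
    rw [prod_zz, e]; rfl
  rw [coe_list _ (zz_lt l)] at h1
  have h2 : ((((zz l).map yG).prod : GL I52 (ZMod 2)) : Matrix I52 I52 (ZMod 2)) =
      ((1 : GL I52 (ZMod 2)) : Matrix I52 I52 (ZMod 2)) := by
    rw [h1]
  rw [coe_word _ (fun k hk => by have := zz_lt l k hk; omega), ← toMat_evalW, Units.val_one] at h2
  have h3 := congrFun (congrFun h2 i) j
  rw [toMat_apply, h, Matrix.one_apply_ne hij] at h3
  exact absurd h3 (by decide)

/-- the words in the derived subgroup -/
noncomputable def zc (l : List (ZMod 8)) : ↥(commutator Cfsg.Agent.ChevalleyStructure.Tits.Order.H0) := (l.map ZC).prod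

theorem coe_zc (l : List (ZMod 8)) : ((zc l : ↥(commutator Cfsg.Agent.ChevalleyStructure.Tits.Order.H0)) :
    Cfsg.Agent.ChevalleyStructure.Tits.Order.H0) = (l.map ZH).prod := by
  unfold zc
  induction l with
  | nil => rfl
  | cons x l ih => rw [List.map_cons, List.prod_cons, List.map_cons, List.prod_cons, Subgroup.coe_mul, ih]; rfl

theorem zc_append (l m : List (ZMod 8)) : zc (l ++ m) = zc l * zc m := by
  unfold zc; rw [List.map_append, List.prod_append]

theorem zc_nil : zc [] = 1 := rfl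

theorem zc_rel {l m : List (ZMod 8)} (h : chk (zz l, zz m) = true) : zc l = zc m := by
  apply Subtype.ext
  rw [coe_zc, coe_zc]
  exact rel_zz h

theorem zc_ne_one {l : List (ZMod 8)} (i j : I52) (hij : i ≠ j)
    (h : (evalW (zz l)).testBit (52 * ix j + ix i) = true) : zc l ≠ 1 := by
  intro e
  apply prod_ne_one hij h
  rw [← coe_zc, e]
  rfl

/-- the `n`-fold repetition of a word -/
def rep (l : List (ZMod 8)) : ℕ → List (ZMod 8)
  | 0 => []
  | n + 1 => l ++ rep l n

theorem zc_rep (l : List (ZMod 8)) (n : ℕ) : zc (rep l n) = zc l ^ n := by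
  induction n with
  | zero => rw [pow_zero]; rfl
  | succ n ih => rw [rep, zc_append, ih, pow_succ']

theorem order_zc {l : List (ZMod 8)} {p : ℕ} (hp : p.Prime) (h : chk (zz (rep l p), zz []) = true) (i j : I52)
    (hij : i ≠ j) (hb : (evalW (zz l)).testBit (52 * ix j + ix i) = true) : orderOf (zc l) = p := by
  have : Fact p.Prime := ⟨hp⟩
  apply orderOf_eq_prime
  · rw [← zc_rep, zc_rel h, zc_nil]
  · exact zc_ne_one i j hij hb

/-- an involution -/
def aw : List (ZMod 8) := [1]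
/-- of order three -/
def bw : List (ZMod 8) := [0, 3, 7, 4, 0, 3, 7, 4]
/-- an involution -/
def cw : List (ZMod 8) := [1, 4, 6, 1]
/-- of order five -/
def dw : List (ZMod 8) := [0, 4]

theorem ka : chk (zz (rep aw 2), zz []) = true := by decide +kernel
theorem kb : chk (zz (rep bw 3), zz []) = true := by decide +kernel
theorem kab : chk (zz (rep (aw ++ bw) 13), zz []) = true := by decide +kernel
theorem kc : chk (zz (rep cw 2), zz []) = true := by decide +kernel
theorem kd : chk (zz (rep dw 5), zz []) = true := by decide +kernel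
theorem kcd : chk (zz (rep (cw ++ dw) 13), zz []) = true := by decide +kernel

theorem oa : orderOf (zc aw) = 2 :=
  order_zc Nat.prime_two ka (Sum.inr 44) (Sum.inl 0) (by decide) (by decide +kernel)
theorem ob : orderOf (zc bw) = 3 :=
  order_zc Nat.prime_three kb (Sum.inr 7) (Sum.inl 0) (by decide) (by decide +kernel)
theorem oab : orderOf (zc aw * zc bw) = 13 := by
  rw [← zc_append]
  exact order_zc (by norm_num) kab (Sum.inr 7) (Sum.inl 0) (by decide) (by decide +kernel)
theorem oc : orderOf (zc cw) = 2 :=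
  order_zc Nat.prime_two kc (Sum.inl 1) (Sum.inl 0) (by decide) (by decide +kernel)
theorem od : orderOf (zc dw) = 5 :=
  order_zc (by norm_num) kd (Sum.inl 1) (Sum.inl 0) (by decide) (by decide +kernel)
theorem ocd : orderOf (zc cw * zc dw) = 13 := by
  rw [← zc_append]
  exact order_zc (by norm_num) kcd (Sum.inr 8) (Sum.inl 0) (by decide) (by decide +kernel)

/-- a group with two triples of types `(2, 3, 13)` and `(2, 5, 13)` -/
def Two (M : Type*) [Group M] : Prop :=
  (∃ x y : M, orderOf x = 2 ∧ orderOf y = 3 ∧ orderOf (x * y) = 13) ∧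
    ∃ x y : M, orderOf x = 2 ∧ orderOf y = 5 ∧ orderOf (x * y) = 13

theorem two_H0 : Two ↥(commutator Cfsg.Agent.ChevalleyStructure.Tits.Order.H0) :=
  ⟨⟨zc aw, zc bw, oa, ob, oab⟩, ⟨zc cw, zc dw, oc, od, ocd⟩⟩

theorem two_of_eq (K : Subgroup (GL I52 (ZMod 2))) (hK : K = Cfsg.Agent.ChevalleyStructure.Tits.Order.H0) :
    Two ↥(commutator K) := by
  subst hK
  exact two_H0

theorem two_titsGroup : Two Cfsg.Lie.TitsGroup := two_of_eq (Cfsg.Lie.twistedF4 (ZMod 2) 1) T0_eq_H0

/-- a triple from a pair -/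
theorem trip_of_pair {M : Type*} [Group M] (hm : Cfsg.Agent.H80.Fpf.MultDvd M 1) {a b c : ℕ} (ha : a.Prime)
    (hb : b.Prime) (hc : c.Prime) (hab : a ≠ b) (hac : a ≠ c) (hbc : b ≠ c) {x y : M} (hx : orderOf x = a)
    (hy : orderOf y = b) (hxy : orderOf (x * y) = c) : TripABC a b c M := by
  refine TripABC.of_mult hm (fun s hs h => absurd (Nat.dvd_one.1 h) hs.one_lt.ne') ha hb hc hab hac hbc
    (PE.of_orderOf ha hx) (PE.of_orderOf hb hy) (z := (x * y)⁻¹) (PE.of_orderOf hc ?_) ?_
  · rw [orderOf_inv]; exact hxy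
  · rw [mul_inv_cancel]

theorem primes {p : ℕ} (hp : p.Prime) (hp2 : p ≠ 2) (hd : p ∣ 17971200) : p = 3 ∨ p = 5 ∨ p = 13 := by
  have hcard : 17971200 = 2 ^ 11 * 3 ^ 3 * 5 ^ 2 * 13 := by norm_num
  rw [hcard] at hd
  rcases (hp.dvd_mul.1 hd) with hd | hd
  · rcases (hp.dvd_mul.1 hd) with hd | hd
    · rcases (hp.dvd_mul.1 hd) with hd | hd
      · exact absurd ((Nat.prime_dvd_prime_iff_eq hp Nat.prime_two).1 (hp.dvd_of_dvd_pow hd)) hp2
      · exact Or.inl ((Nat.prime_dvd_prime_iff_eq hp Nat.prime_three).1 (hp.dvd_of_dvd_pow hd))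
    · exact Or.inr (Or.inl ((Nat.prime_dvd_prime_iff_eq hp (by norm_num)).1 (hp.dvd_of_dvd_pow hd)))
  · exact Or.inr (Or.inr ((Nat.prime_dvd_prime_iff_eq hp (by norm_num)).1 hd))

/-- the abstract form -/
theorem row_of {M : Type*} [Group M] (hcard : Nat.card M = 17971200) (hm : Cfsg.Agent.H80.Fpf.MultDvd M 1)
    (h : Two M) : RowOdd M := by
  intro p hp hp2 hd
  right
  obtain ⟨⟨x, y, hx, hy, hxy⟩, ⟨x', y', hx', hy', hxy'⟩⟩ := h
  have h1 : TripABC 2 3 13 M := trip_of_pair hm (by norm_num) (by norm_num) (by norm_num) (by norm_num) (by norm_num)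
    (by norm_num) hx hy hxy
  have h2 : TripABC 2 5 13 M := trip_of_pair hm (by norm_num) (by norm_num) (by norm_num) (by norm_num) (by norm_num)
    (by norm_num) hx' hy' hxy'
  rw [hcard] at hd
  rcases primes hp hp2 hd with rfl | rfl | rfl
  · exact ⟨2, 3, 13, by norm_num, by norm_num, h1⟩
  · exact ⟨2, 5, 13, by norm_num, by norm_num, h2⟩
  · exact ⟨2, 3, 13, by norm_num, by norm_num, h1⟩

theorem mult_titsGroup : Cfsg.Agent.H80.Fpf.MultDvd Cfsg.Lie.TitsGroup 1 :=
  Cfsg.Agent.H80.Fpf.multDvd_of_cyclic (S := Cfsg.Lie.TitsGroup) (n := 1) Nat.one_ne_zero Cfsg.Agent.S2115.result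

theorem card_titsGroup : Nat.card Cfsg.Lie.TitsGroup = 17971200 := facts.2.2

theorem row_titsGroup : RowOdd Cfsg.Lie.TitsGroup :=
  @row_of Cfsg.Lie.TitsGroup _ card_titsGroup mult_titsGroup two_titsGroup

/-- **The row of the Tits group.** -/
theorem row_tits {S : Type*} [Group S] (h : Cfsg.Lie.IsoTits S) : RowOdd S := by
  obtain ⟨e⟩ := h
  exact @RowOdd.congr Cfsg.Lie.TitsGroup _ S _ e.symm row_titsGroup

end Cfsg.Agent.H628.PQR.Tits
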